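import Mathlib
import Cfsg.Agent.Core.SylowOf
import Cfsg.Agent.Core.MinNormal
import Cfsg.Agent.Core.PSolvable

/-! The average size of fixed point subgroups under a coprime action of a `p`-group. -/

set_option autoImplicit false

namespace Cfsg.Agent.PCount

open Cfsg Cfsg.Agent.Core Subgroup Real

universe u

theorem card_eq_ker_mul {W W' : Type*} [Group W] [Group W'] (φ : W →* W') (U : Subgroup W) :
    Nat.card U = Nat.card (U ⊓ φ.ker : Subgroup W) * Nat.card (U.map φ) := by
  rw [← relIndex_ker, inf_comm, card_inf_mul_relIndex]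

theorem prod_ker_le {W ι : Type*} [Group W] [Finite W] (t : ι → W →* W) (s : Finset ι)
    (U : Subgroup W) (hc : ∀ i j, ∀ w ∈ U, t i (t j w) = t j (t i w))
    (hd : ∀ i ∈ s, ∀ j ∈ s, i ≠ j → ∀ w ∈ U, t i w = 1 → t j w = 1 → w = 1)
    (hU : ∀ i, ∀ w ∈ U, t i w ∈ U) :
    ∏ i ∈ s, Nat.card (U ⊓ (t i).ker : Subgroup W) ≤ Nat.card U := by
  classical
  induction s using Finset.induction_on generalizing U with
  | empty => exact Nat.card_pos
  | insert a s ha ih =>
    have le : U.map (t a) ≤ U := by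
      rintro _ ⟨w, hw, rfl⟩
      exact hU a w hw
    rw [Finset.prod_insert ha, card_eq_ker_mul (t a) U]
    refine Nat.mul_le_mul_left _ (le_trans (Finset.prod_le_prod' fun i hi => ?_)
      (ih _ (fun i j w hw => hc i j w (le hw)) (fun i hi j hj e w hw =>
        hd i (Finset.mem_insert_of_mem hi) j (Finset.mem_insert_of_mem hj) e w (le hw)) ?_))
    · refine Nat.card_le_card_of_injective (fun w => ⟨t a w, mem_map_of_mem _ w.2.1, by
        change t i (t a w) = 1
        rw [hc _ _ _ w.2.1, show t i w = 1 from w.2.2, map_one]⟩) fun v w e => ?_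
      have e : t a v = t a w := congrArg Subtype.val e
      exact Subtype.ext (inv_mul_eq_one.1 (hd a (Finset.mem_insert_self _ _) i
        (Finset.mem_insert_of_mem hi) (fun c => ha (c ▸ hi)) _ (v⁻¹ * w).2.1 (by simp [e])
        (v⁻¹ * w).2.2))
    · rintro i _ ⟨w, hw, rfl⟩
      exact ⟨_, hU i w hw, hc _ _ _ hw⟩

theorem exists_central_mod {P : Type*} [Group P] [Finite P] {p : ℕ} [Fact p.Prime]
    (hP : IsPGroup p P) (K : Subgroup P) [K.Normal] (h : K ≠ ⊤) :
    ∃ z ∉ K, z ^ p ∈ K ∧ ∀ y, (z * y)⁻¹ * (y * z) ∈ K := by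
  have := QuotientGroup.nontrivial_iff.2 h
  have hQ : IsPGroup p (P ⧸ K) := hP.to_quotient K
  have := hQ.center_nontrivial
  obtain ⟨k, hk, e⟩ := (hQ.to_subgroup (center _)).nontrivial_iff_card.1 ‹_›
  obtain ⟨⟨w, hw⟩, ho⟩ := exists_prime_orderOf_dvd_card' (G := center (P ⧸ K)) p
    (e ▸ dvd_pow_self p hk.ne')
  obtain ⟨z, rfl⟩ := QuotientGroup.mk_surjective w
  refine ⟨z, fun c => ?_, ?_, fun y => QuotientGroup.eq.1 (mem_center_iff.1 hw (y : P ⧸ K)).symm⟩
  · rw [show (⟨z, hw⟩ : center (P ⧸ K)) = 1 from Subtype.ext ((QuotientGroup.eq_one_iff _).2 c),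
      orderOf_one] at ho
    exact (Fact.out : p.Prime).one_lt.ne ho
  · rw [← QuotientGroup.eq_one_iff]
    exact congrArg Subtype.val (ho ▸ pow_orderOf_eq_one (⟨z, hw⟩ : center (P ⧸ K)))

/-- The logarithm of the order. -/
noncomputable def lc {G : Type*} [Group G] (U : Subgroup G) : ℝ := log (Nat.card U)

theorem lc_le {G G₁ G₂ : Type*} [Group G] [Group G₁] [Group G₂] [Finite G] {U : Subgroup G}
    {V : Subgroup G₁} {W : Subgroup G₂} (h : Nat.card U ≤ Nat.card V * Nat.card W) :
    lc U ≤ lc V + lc W := by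
  have h0 : 0 < Nat.card U := Nat.card_pos
  have h1 := Nat.pos_of_mul_pos_right (h0.trans_le h)
  have h2 := Nat.pos_of_mul_pos_left (h0.trans_le h)
  rw [lc, lc, lc, ← log_mul (by positivity) (by positivity)]
  exact log_le_log (by positivity) (by exact_mod_cast h)

theorem lc_eq {G G₁ G₂ : Type*} [Group G] [Group G₁] [Group G₂] [Finite G] {U : Subgroup G}
    {V : Subgroup G₁} {W : Subgroup G₂} (h : Nat.card U = Nat.card V * Nat.card W) :
    lc U = lc V + lc W := by
  have h0 : 0 < Nat.card U := Nat.card_pos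
  have h1 := Nat.pos_of_mul_pos_right (h0.trans_eq h)
  have h2 := Nat.pos_of_mul_pos_left (h0.trans_eq h)
  rw [lc, lc, lc, ← log_mul (by positivity) (by positivity), h, Nat.cast_mul]

theorem lc_mono {G : Type*} [Group G] [Finite G] {U V : Subgroup G} (h : U ≤ V) : lc U ≤ lc V :=
  log_le_log (by exact_mod_cast Nat.card_pos) (by exact_mod_cast card_le_of_le h)

theorem lc_nonneg {G : Type*} [Group G] (U : Subgroup G) : 0 ≤ lc U := log_natCast_nonneg _

variable {P : Type*} [Group P] [Fintype P] {p : ℕ} [hp : Fact p.Prime] (hP : IsPGroup p P)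

section ab
variable {W : Type*} [CommGroup W] [Finite W] (ρ : P →* MulAut W)

/-- The commutator map. -/
def T (x : P) : W →* W := (ρ x).toMonoidHom / MonoidHom.id W

omit [Fintype P] [Finite W] in
theorem T_apply (x : P) (w : W) : T ρ x w = ρ x w / w := rfl

omit [Fintype P] [Finite W] in
theorem mem_ker_T {x : P} {w : W} : w ∈ (T ρ x).ker ↔ ρ x w = w := by
  rw [MonoidHom.mem_ker, T_apply, div_eq_one]

include hP in
theorem ci_ab (hW : (Nat.card W).Coprime p) (U : Subgroup W) (hU : ∀ x, ∀ w ∈ U, ρ x w ∈ U) :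
    p * ∑ x, lc (U ⊓ (T ρ x).ker) ≤
      Fintype.card P * (lc U + (p - 1) * lc (U ⊓ ⨅ x, (T ρ x).ker)) := by
  induction h : Nat.card U using Nat.strong_induction_on generalizing U with
  | _ n ih =>
  let K : Subgroup P :=
    { carrier := {y | ∀ w ∈ U, ρ y w = w}
      one_mem' := by simp
      mul_mem' := fun {u v} hu hv c hc => by simp [hv c hc, hu c hc]
      inv_mem' := fun {u} hu c hc => by simpa [MulEquiv.symm_apply_eq] using (hu c hc).symm }
  have hK : K.Normal := ⟨fun u hu y c hc => by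
    rw [map_mul, map_mul, MulAut.mul_apply, MulAut.mul_apply, hu _ (hU _ c hc)]; simp⟩
  by_cases hT : K = ⊤
  · have f : ∀ y, U ≤ (T ρ y).ker := fun y w hw => (mem_ker_T ρ).2 ((hT ▸ mem_top y : y ∈ K) w hw)
    simp only [inf_eq_left.2 (f _), inf_eq_left.2 (le_iInf f), Finset.sum_const, Finset.card_univ,
      nsmul_eq_mul]
    exact le_of_eq (by ring)
  obtain ⟨z, z1, z2, z3⟩ := exists_central_mod hP K hT
  have c1 : ∀ y, ∀ w ∈ U, ρ y (ρ z w) = ρ z (ρ y w) := fun y w hw => by
    simpa [MulEquiv.symm_apply_eq] using z3 y w hw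
  have c2 : ∀ y, ∀ w ∈ U, ρ y (T ρ z w) = T ρ z (ρ y w) := fun y w hw => by
    rw [T_apply, T_apply, map_div, c1 y w hw]
  set U₁ := U ⊓ (T ρ z).ker
  set U₂ := U.map (T ρ z)
  have u2 : U₂ ≤ U := by
    rintro _ ⟨w, hw, rfl⟩
    exact div_mem (hU z w hw) hw
  have i1 : ∀ x, ∀ w ∈ U₁, ρ x w ∈ U₁ := fun x w hw =>
    ⟨hU x w hw.1, (mem_ker_T ρ).2 (by rw [← c1 x w hw.1, (mem_ker_T ρ).1 hw.2])⟩
  have i2 : ∀ x, ∀ w ∈ U₂, ρ x w ∈ U₂ := by
    rintro x _ ⟨w, hw, rfl⟩
    exact ⟨_, hU x w hw, (c2 x w hw).symm⟩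
  have lt : U₁ < U := lt_of_le_of_ne inf_le_left fun e => z1 fun w hw =>
    (mem_ker_T ρ).1 (e.ge hw).2
  have h1 := ih _ (h ▸ card_lt_of_lt lt) U₁ i1 rfl
  have h2 : ∀ x, lc (U ⊓ (T ρ x).ker) ≤ lc (U₁ ⊓ (T ρ x).ker) + lc (U₂ ⊓ (T ρ x).ker) := fun x => by
    refine lc_le ((card_eq_ker_mul (T ρ z) _).trans_le (Nat.mul_le_mul (by rw [inf_right_comm])
      (card_le_of_le ?_)))
    rintro _ ⟨w, hw, rfl⟩
    exact ⟨mem_map_of_mem _ hw.1, (mem_ker_T ρ).2 (by rw [c2 x w hw.1, (mem_ker_T ρ).1 hw.2])⟩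
  have h3 : lc U = lc U₁ + lc U₂ := lc_eq (card_eq_ker_mul (T ρ z) U)
  have h4 : lc (U₁ ⊓ ⨅ x, (T ρ x).ker) ≤ lc (U ⊓ ⨅ x, (T ρ x).ker) :=
    lc_mono (inf_le_inf_right _ inf_le_left)
  have fpf : ∀ w ∈ U₂, ∀ i, ¬ p ∣ i → ρ (z ^ i) w = w → w = 1 := by
    rintro _ ⟨u, hu, rfl⟩ i hi e
    have e1 : ρ z (T ρ z u) = T ρ z u := by
      obtain ⟨m, hm⟩ := Nat.exists_mul_mod_eq_one_of_coprime
        ((Nat.Prime.coprime_iff_not_dvd hp.out).2 hi).symm hp.out.one_lt
      have a1 : ∀ k : ℕ, ρ ((z ^ i) ^ k) (T ρ z u) = T ρ z u := fun k => by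
        induction k with
        | zero => simp
        | succ k ih => rw [pow_succ, map_mul, MulAut.mul_apply, e, ih]
      have a2 := a1 m
      rw [← pow_mul, ← Nat.mod_add_div (i * m) p, hm.2, pow_add, pow_mul, map_mul, MulAut.mul_apply,
        pow_mem z2 _ _ (u2 (mem_map_of_mem _ hu)), pow_one] at a2
      exact a2
    have e2 : ∀ k : ℕ, ρ (z ^ k) u = T ρ z u ^ k * u := fun k => by
      induction k with
      | zero => simp
      | succ k ih =>
        rw [pow_succ', map_mul, MulAut.mul_apply, ih, map_mul, map_pow, e1, pow_succ, T_apply, mul_assoc,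
          div_mul_cancel]
    have e3 := e2 p
    rw [z2 u hu, eq_comm, mul_eq_right] at e3
    exact (pow_eq_one_iff_of_coprime hW.symm).1 ⟨e3, pow_card_eq_one'⟩
  have h5 : ∀ x, ∑ i ∈ Finset.range p, lc (U₂ ⊓ (T ρ (x * z ^ i)).ker) ≤ lc U₂ := fun x => by
    have c3 : ∀ (i : ℕ) y, ∀ w ∈ U, ρ y (ρ (z ^ i) w) = ρ (z ^ i) (ρ y w) := fun i y => by
      induction i with
      | zero => simp
      | succ i ih =>
        intro w hw
        rw [pow_succ, map_mul, MulAut.mul_apply, MulAut.mul_apply, ih _ (hU z w hw), c1 y w hw]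
    have lt : ∀ i j, i < j → j < p → ∀ w ∈ U₂, ρ (x * z ^ i) w = w → ρ (x * z ^ j) w = w → w = 1 :=
      fun i j a b w hw e e' => fpf w hw (j - i) (Nat.not_dvd_of_pos_of_lt (by omega) (by omega)) (by
        apply (ρ (x * z ^ i)).injective
        rw [← MulAut.mul_apply, ← map_mul, mul_assoc, ← pow_add, Nat.add_sub_cancel' a.le, e, e'])
    have := prod_ker_le (fun i : ℕ => T ρ (x * z ^ i)) (Finset.range p) U₂ (fun i j w hw => by
        simp only [T_apply, map_div, map_mul, MulAut.mul_apply]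
        rw [← c3 i x _ (hU _ _ (u2 hw)), ← c3 j x _ (hU _ _ (u2 hw)), c3 i (z ^ j) w (u2 hw),
          div_div_div_comm])
      (fun i hi j hj e w hw a b => by
        rcases lt_or_gt_of_ne e with c | c
        · exact lt i j c (Finset.mem_range.1 hj) w hw ((mem_ker_T ρ).1 a) ((mem_ker_T ρ).1 b)
        · exact lt j i c (Finset.mem_range.1 hi) w hw ((mem_ker_T ρ).1 b) ((mem_ker_T ρ).1 a))
      fun i w hw => div_mem (i2 _ w hw) hw
    simp only [lc]
    rw [← log_prod fun i _ => by exact_mod_cast Nat.card_pos.ne']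
    exact log_le_log (Finset.prod_pos fun i _ => by exact_mod_cast Nat.card_pos) (by exact_mod_cast this)
  have h6 : p * ∑ x, lc (U₂ ⊓ (T ρ x).ker) ≤ Fintype.card P * lc U₂ := by
    calc _ = ∑ i ∈ Finset.range p, ∑ x, lc (U₂ ⊓ (T ρ (x * z ^ i)).ker) := by
          have : ∀ i : ℕ, ∑ x, lc (U₂ ⊓ (T ρ (x * z ^ i)).ker) = ∑ x, lc (U₂ ⊓ (T ρ x).ker) :=
            fun i => Equiv.sum_comp (Equiv.mulRight (z ^ i)) fun x => lc (U₂ ⊓ (T ρ x).ker)
          simp [this]
      _ ≤ _ := by
          rw [Finset.sum_comm]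
          exact (Finset.sum_le_sum fun x _ => h5 x).trans_eq (by simp)
  have h7 := Finset.sum_le_sum fun x (_ : x ∈ Finset.univ) => h2 x
  rw [Finset.sum_add_distrib] at h7
  have p1 : (1 : ℝ) ≤ p := by exact_mod_cast hp.out.one_le
  have h8 := mul_le_mul_of_nonneg_left h4 (show (0 : ℝ) ≤ Fintype.card P * (p - 1) from
    mul_nonneg (Nat.cast_nonneg _) (by linarith))
  rw [h3]
  nlinarith

end ab

/-- The coprime inequality. -/
def CI (p : ℕ) {G : Type*} [Group G] (f : P →* G) (K : Subgroup G) : Prop :=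
  p * ∑ x, lc (K ⊓ centralizer {f x}) ≤
    Fintype.card P * (lc K + (p - 1) * lc (K ⊓ centralizer (f.range : Set G)))

theorem card_inf_sub {G : Type*} [Group G] {H K : Subgroup G} (h : K ≤ H) (L : Subgroup G)
    (M : Subgroup H) (e : ∀ x : H, x ∈ M ↔ x.1 ∈ L) : lc (K.subgroupOf H ⊓ M) = lc (K ⊓ L) := by
  have : K.subgroupOf H ⊓ M = (K ⊓ L).subgroupOf H := by
    ext x; simp [mem_subgroupOf, e]
  rw [this, lc, lc, Nat.card_congr (subgroupOfEquivOfLe (inf_le_left.trans h)).toEquiv]

include hP in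
theorem ci_comm {G : Type*} [Group G] [Finite G] (f : P →* G) (V : Subgroup G) [V.Normal]
    (hV : IsMulCommutative V) (hc : (Nat.card V).Coprime p) : CI p f V := by
  letI : CommGroup V := { (inferInstance : Group V) with mul_comm := hV.1.1 }
  have := ci_ab hP (W := V) ((MulAut.conjNormal (H := V)).comp f) hc ⊤ (by simp)
  have e : ∀ (x : P) (v : V), v ∈ (T ((MulAut.conjNormal (H := V)).comp f) x).ker ↔
      v.1 ∈ centralizer {f x} := fun x v => by
    rw [mem_ker_T, mem_centralizer_singleton_iff, Subtype.ext_iff]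
    simp only [MonoidHom.comp_apply, MulAut.conjNormal_apply, mul_inv_eq_iff_eq_mul]
    exact eq_comm
  rw [← subgroupOf_self V] at this
  simp only [card_inf_sub le_rfl _ _ (e _)] at this
  rw [card_inf_sub le_rfl (centralizer (f.range : Set G)) _ fun v => by
    simp [mem_iInf, e, mem_centralizer_iff, eq_comm]] at this
  rwa [show lc (V.subgroupOf V) = lc V by simp [lc]] at this

omit [Fintype P] in
include hP in
theorem cop {G : Type*} [Group G] [Finite G] (f : P →* G) {A : Subgroup G} (h : A ≤ f.range) {n : ℕ}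
    (hc : n.Coprime p) : (Nat.card A).Coprime n ∧ Group.IsSolvable A := by
  have h1 : IsPGroup p A := (hP.of_surjective _ f.rangeRestrict_surjective).to_le h
  obtain ⟨k, hk⟩ := h1.exists_card_eq
  have := h1.isNilpotent
  exact ⟨hk ▸ hc.symm.pow_left k, inferInstance⟩

include hP in
theorem ci_normal (G : Type u) [Group G] [Finite G] : ∀ (f : P →* G) (K : Subgroup G), K.Normal →
    Group.IsSolvable K → (Nat.card K).Coprime p → CI p f K := by
  refine induction_on_card (P := fun G _ _ => ∀ (f : P →* G) (K : Subgroup G), K.Normal →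
    Group.IsSolvable K → (Nat.card K).Coprime p → CI p f K) (fun G _ _ ih f K _ hs hc => ?_) G
  rcases eq_or_ne K ⊥ with rfl | h0
  · simp [CI, lc]
  obtain ⟨V, r, _, v0, v1, -, v2, -⟩ := exists_minimal_normal_elementary_le K hs h0
  have c := hc.coprime_dvd_left (card_dvd_of_le v1)
  have h1 := ci_comm hP f V v2.1 c
  have h2 := ih (G ⧸ V) (card_quotient_lt V v0) ((QuotientGroup.mk' V).comp f)
    (K.map (QuotientGroup.mk' V)) (Normal.map ‹_› _ (QuotientGroup.mk'_surjective V))
    (solvable_map hs _) (hc.coprime_dvd_left (Subgroup.card_map_dvd _ _))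
  have h3 : ∀ x, lc (K ⊓ centralizer {f x}) ≤ lc (V ⊓ centralizer {f x}) +
      lc (K.map (QuotientGroup.mk' V) ⊓ centralizer {(QuotientGroup.mk' V).comp f x}) := fun x => by
    refine lc_le ((card_eq_ker_mul (QuotientGroup.mk' V) _).trans_le (Nat.mul_le_mul (card_le_of_le ?_)
      (card_le_of_le ?_)))
    · rw [QuotientGroup.ker_mk']; exact fun y hy => ⟨hy.2, hy.1.2⟩
    · rintro _ ⟨y, hy, rfl⟩
      exact ⟨mem_map_of_mem _ hy.1, mem_centralizer_singleton_iff.2
        (congrArg (QuotientGroup.mk' V) (mem_centralizer_singleton_iff.1 hy.2))⟩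
  have h4 : lc K = lc V + lc (K.map (QuotientGroup.mk' V)) := lc_eq (by
    rw [card_eq_ker_mul (QuotientGroup.mk' V) K, QuotientGroup.ker_mk', inf_eq_right.2 v1])
  have h5 : lc (K ⊓ centralizer (f.range : Set G)) = lc (V ⊓ centralizer (f.range : Set G)) +
      lc (K.map (QuotientGroup.mk' V) ⊓ centralizer (((QuotientGroup.mk' V).comp f).range : Set _)) :=
    lc_eq (by
      rw [card_eq_ker_mul (QuotientGroup.mk' V), QuotientGroup.ker_mk', inf_right_comm, inf_eq_right.2 v1,
        ← MonoidHom.map_range, inf_centralizer_map_mk' _ _ _ v1 (cop hP f le_rfl c).1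
          (.inl (cop hP f le_rfl c).2)])
  have h7 := Finset.sum_le_sum fun x (_ : x ∈ Finset.univ) => h3 x
  rw [Finset.sum_add_distrib] at h7
  unfold CI at *
  rw [h4, h5]
  nlinarith [Nat.cast_nonneg (α := ℝ) p]

include hP in
theorem ci_solv {G : Type*} [Group G] [Finite G] (f : P →* G) (K : Subgroup G)
    (hn : f.range ≤ normalizer (K : Set G)) (hs : Group.IsSolvable K) (hc : (Nat.card K).Coprime p) :
    CI p f K := by
  have := ci_normal hP _ (f.codRestrict _ fun x => hn ⟨x, rfl⟩) (K.subgroupOf _) normal_in_normalizer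
    (solvable_subgroupOf hs) (by rwa [Nat.card_congr (subgroupOfEquivOfLe le_normalizer).toEquiv])
  unfold CI at *
  have e : ∀ (x : P) (v : normalizer (K : Set G)), v ∈ centralizer {f.codRestrict _ (fun x => hn ⟨x, rfl⟩) x} ↔
      v.1 ∈ centralizer {f x} := fun x v => by
    simp [mem_centralizer_singleton_iff, Subtype.ext_iff]
  simp only [card_inf_sub le_normalizer _ _ (e _)] at this
  rw [card_inf_sub le_normalizer (centralizer (f.range : Set G)) _ fun v => by
    simp only [mem_centralizer_iff, SetLike.mem_coe, MonoidHom.mem_range, forall_exists_index,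
      forall_apply_eq_imp_iff]
    exact forall_congr' fun _ => Subtype.ext_iff] at this
  rwa [show lc (K.subgroupOf (normalizer K)) = lc K by
    rw [lc, lc, Nat.card_congr (subgroupOfEquivOfLe le_normalizer).toEquiv]] at this

theorem lc_eq_sum {G : Type*} [Group G] [Finite G] {K L : Subgroup G} (h : L ≤ K) (R : ℕ → Subgroup G)
    (hR : ∀ r, r.Prime → IsSylowOf r (R r) L) : lc L = ∑ r ∈ (Nat.card K).primeFactors, lc (R r) := by
  rw [lc, log_nat_eq_sum_factorization, Finsupp.sum_of_support_subset _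
    (Nat.primeFactors_mono (card_dvd_of_le h) Nat.card_pos.ne') _ (by simp)]
  refine Finset.sum_congr rfl fun r hr => ?_
  have := Fact.mk (Nat.prime_of_mem_primeFactors hr)
  rw [lc, (hR r this.out).card_eq_pow]; simp

include hP in
theorem ci {G : Type*} [Group G] [Finite G] (f : P →* G) (K : Subgroup G) [K.Normal]
    (hc : (Nat.card K).Coprime p) : CI p f K := by
  have : ∀ r : ℕ, ∃ R : Subgroup G, r.Prime → IsSylowOf r R K ∧ f.range ≤ normalizer (R : Set G) :=
    fun r => by
      by_cases hr : r.Prime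
      · have := Fact.mk hr
        obtain ⟨R, h⟩ := exists_invariant_isSylowOf f.range K le_normalizer_of_normal
          (cop hP f le_rfl hc).1 (.inl (cop hP f le_rfl hc).2) r
        exact ⟨R, fun _ => h⟩
      · exact ⟨⊥, fun h => absurd h hr⟩
  choose R hR using this
  have key : ∀ A ≤ f.range, lc (K ⊓ centralizer (A : Set G)) =
      ∑ r ∈ (Nat.card K).primeFactors, lc (R r ⊓ centralizer (A : Set G)) := fun A hA =>
    lc_eq_sum inf_le_left _ fun r hr => by
      have := Fact.mk hr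
      exact (hR r hr).1.inf_centralizer A K le_normalizer_of_normal (cop hP f hA hc).1
        (.inl (cop hP f hA hc).2) (hA.trans (hR r hr).2)
  have e : ∀ x, centralizer {f x} = centralizer (zpowers (f x) : Set G) := fun x => by
    rw [zpowers_eq_closure, centralizer_closure]
  have k2 : ∀ x, lc (K ⊓ centralizer {f x}) =
      ∑ r ∈ (Nat.card K).primeFactors, lc (R r ⊓ centralizer {f x}) := fun x => by
    rw [e]; exact key _ (zpowers_le.2 ⟨x, rfl⟩)
  unfold CI
  simp only [k2]
  rw [key _ le_rfl, lc_eq_sum le_rfl R fun r hr => (hR r hr).1, Finset.sum_comm, Finset.mul_sum,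
    Finset.mul_sum, ← Finset.sum_add_distrib, Finset.mul_sum]
  refine Finset.sum_le_sum fun r hr => ?_
  have := Fact.mk (Nat.prime_of_mem_primeFactors hr)
  have := (hR r this.out).1.isPGroup.isNilpotent
  exact ci_solv hP f _ (hR r Fact.out).2 inferInstance
    (hc.coprime_dvd_left (card_dvd_of_le (hR r Fact.out).1.le))

/-- The elements conjugating `f x` into the range. -/
def mu {G : Type*} [Group G] (f : P →* G) (x : P) : Set G := {g | g⁻¹ * f x * g ∈ f.range}

theorem card_le_mul {α β : Type*} [Finite α] [Finite β] (φ : α → β) {S : Set α} {T : Set β} {c : ℕ}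
    (h : ∀ a ∈ S, φ a ∈ T) (hc : ∀ a ∈ S, {b | b ∈ S ∧ φ b = φ a}.ncard ≤ c) :
    S.ncard ≤ c * T.ncard := by
  classical
  rw [Set.ncard_eq_toFinset_card S, Set.ncard_eq_toFinset_card T]
  refine Finset.card_le_mul_card_image_of_maps_to (f := φ) (by simpa using h) c fun b _ => ?_
  rcases (Finset.filter (fun a => φ a = b) S.toFinite.toFinset).eq_empty_or_nonempty with e | ⟨a, ha⟩
  · simp [e]
  · simp only [Finset.mem_filter, Set.Finite.mem_toFinset] at ha
    refine le_trans (le_of_eq ?_) (hc a ha.1)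
    rw [← Set.ncard_coe_finset]
    congr 1; ext; simp [ha.2]

include hP in
theorem main (G : Type u) [Group G] [Finite G] : ∀ f : P →* G, IsPSolvable p G →
    IsSylowOf p f.range ⊤ → p * ∑ x, log (mu f x).ncard ≤
      Fintype.card P * (log (Nat.card G) + (p - 1) * lc (normalizer (f.range : Set G))) := by
  refine induction_on_card (P := fun G _ _ => ∀ f : P →* G, IsPSolvable p G →
    IsSylowOf p f.range ⊤ → p * ∑ x, log (mu f x).ncard ≤
      Fintype.card P * (log (Nat.card G) + (p - 1) * lc (normalizer (f.range : Set G))))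
    (fun G _ _ ih f hG hf => ?_) G
  have p1 : (1 : ℝ) ≤ p := by exact_mod_cast hp.out.one_le
  have pos : ∀ {G : Type u} [Group G] [Finite G] (f : P →* G) x, 0 < (mu f x).ncard := fun f x =>
    (Set.ncard_pos (Set.toFinite _)).2 ⟨1, x, by simp⟩
  rcases eq_or_ne (⊤ : Subgroup G) ⊥ with h0 | h0
  · have := Subgroup.subsingleton_iff.1 (subsingleton_of_top_le_bot h0.le)
    have a : ∀ x, (mu f x).ncard = 1 := fun x =>
      le_antisymm ((Set.ncard_le_card _).trans (Finite.card_le_one_iff_subsingleton.2 this)) (pos f x)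
    simp only [a, Nat.cast_one, log_one, Finset.sum_const_zero, mul_zero]
    exact mul_nonneg (Nat.cast_nonneg _) (add_nonneg (log_natCast_nonneg _)
      (mul_nonneg (by linarith) (lc_nonneg _)))
  obtain ⟨N, _, n0, -, nm⟩ := exists_minimal_normal_le ⊤ h0
  set φ := QuotientGroup.mk' N
  have h2 := ih (G ⧸ N) (card_quotient_lt N n0) (φ.comp f) (IsPSolvable.quotient hG N) (by
    have := hf.map φ
    rwa [MonoidHom.map_range, map_top_of_surjective _ (QuotientGroup.mk'_surjective N)] at this)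
  have h4 : log (Nat.card G) = lc N + log (Nat.card (G ⧸ N)) := by
    rw [lc, ← log_mul (by exact_mod_cast Nat.card_pos.ne') (by exact_mod_cast Nat.card_pos.ne'),
      card_eq_card_quotient_mul_card_subgroup N, Nat.cast_mul, mul_comm]
  suffices h : ∃ (C : P → Subgroup G) (D : Subgroup G), D ≤ N ⊓ normalizer (f.range : Set G) ∧
      (∀ x, ∀ g ∈ mu f x, ∀ g' ∈ mu f x, φ g' = φ g → g' * g⁻¹ ∈ C x) ∧
      normalizer ((φ.comp f).range : Set (G ⧸ N)) ≤ (normalizer (f.range : Set G)).map φ ∧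
      p * ∑ x, lc (C x) ≤ Fintype.card P * (lc N + (p - 1) * lc D) by
    obtain ⟨C, D, d, c, e, h1⟩ := h
    have h3 : ∀ x, log (mu f x).ncard ≤ lc (C x) + log (mu (φ.comp f) x).ncard := fun x => by
      rw [lc, ← log_mul (by exact_mod_cast Nat.card_pos.ne') (by exact_mod_cast (pos _ x).ne')]
      refine log_le_log (by exact_mod_cast pos f x) ?_
      have := card_le_mul φ (S := mu f x) (T := mu (φ.comp f) x) (c := Nat.card (C x))
        (fun a ⟨y, hy⟩ => ⟨y, by simp [hy]⟩) fun a ha =>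
          Set.ncard_le_ncard_of_injOn (t := C x) (fun b => b * a⁻¹) (fun b hb => c x a ha b hb.1 hb.2)
            (fun _ _ _ _ h => mul_right_cancel h)
      exact_mod_cast this
    have h5 : lc D + lc (normalizer ((φ.comp f).range : Set (G ⧸ N))) ≤
        lc (normalizer (f.range : Set G)) := by
      rw [lc_eq (card_eq_ker_mul φ (normalizer (f.range : Set G))), QuotientGroup.ker_mk', inf_comm]
      exact add_le_add (lc_mono d) (lc_mono e)
    have h7 := Finset.sum_le_sum fun x (_ : x ∈ Finset.univ) => h3 x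
    rw [Finset.sum_add_distrib] at h7
    have h8 := mul_le_mul_of_nonneg_left h5 (show (0 : ℝ) ≤ Fintype.card P * (p - 1) from
      mul_nonneg (Nat.cast_nonneg _) (by linarith))
    rw [h4]
    nlinarith
  rcases minimal_normal_of_isPSolvable N (IsPSolvable.subgroup hG N) nm with h | h
  · have le : N ≤ f.range := hf.normal_le h le_top le_normalizer_of_normal
    refine ⟨fun _ => N, N, le_inf le_rfl (le.trans le_normalizer), fun x g _ g' _ e => ?_, ?_, ?_⟩
    · rw [← QuotientGroup.ker_mk' N, MonoidHom.mem_ker, map_mul, map_inv, e, mul_inv_cancel]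
    · intro y hy
      obtain ⟨y, rfl⟩ := QuotientGroup.mk'_surjective N y
      refine mem_map_of_mem _ ?_
      rw [← mem_comap, comap_normalizer_eq_of_surjective _ (QuotientGroup.mk'_surjective N),
        ← MonoidHom.map_range, comap_map_eq_self (by rwa [QuotientGroup.ker_mk'])] at hy
      exact hy
    · simp only [Finset.sum_const, Finset.card_univ, nsmul_eq_mul]
      exact le_of_eq (by ring)
  · obtain ⟨c1, c2⟩ := cop hP f le_rfl h
    refine ⟨fun x => N ⊓ centralizer {f x}, N ⊓ centralizer (f.range : Set G),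
      inf_le_inf_left _ (centralizer_le_normalizer _), fun x g hg g' hg' e => ?_, ?_, ci hP f N h⟩
    · have a : g' * g⁻¹ ∈ N := by
        rw [← QuotientGroup.ker_mk' N, MonoidHom.mem_ker, map_mul, map_inv, e, mul_inv_cancel]
      have b : (g⁻¹ * f x * g)⁻¹ * (g'⁻¹ * f x * g') ∈ N := by
        rw [← QuotientGroup.ker_mk' N, MonoidHom.mem_ker]
        simp only [map_mul, map_inv]
        rw [e, inv_mul_cancel]
      have d := disjoint_def.1 (disjoint_of_coprime c1) (mul_mem (inv_mem hg) hg') b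
      rw [inv_mul_eq_one] at d
      refine ⟨a, mem_centralizer_singleton_iff.2 ?_⟩
      calc g' * g⁻¹ * f x = g' * (g⁻¹ * f x * g) * g⁻¹ := by group
        _ = _ := by rw [d]; group
    · rw [← MonoidHom.map_range, normalizer_map_mk' _ _ c1 (.inl c2)]

end Cfsg.Agent.PCount
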